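import Mathlib
import Cfsg.Agent.Lib.Invol.Isolated
import Cfsg.Agent.Lib.Solv.SchurZassenhaus

/-!
Groups in which intersections of Sylow 2-subgroups are central in some Sylow 2-subgroup.
-/

set_option autoImplicit false

namespace Cfsg.Lib.TwoFus

open Subgroup

variable {G : Type*} [Group G] [Finite G] [Fact (Nat.Prime 2)]

theorem sylow_le_centralizer_of_mem (hCI : ∀ S T : Sylow 2 G, S ≠ T → ∃ U : Sylow 2 G,
      (S : Subgroup G) ⊓ (T : Subgroup G) ≤ (center ↥(U : Subgroup G)).map (U : Subgroup G).subtype)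
    {S T : Sylow 2 G} (hne : S ≠ T) {x : G} (hx : x ∈ (S : Subgroup G) ⊓ (T : Subgroup G)) :
    (S : Subgroup G) ≤ centralizer ({x} : Set G) := by
  have hcen : ∀ (U : Sylow 2 G) {d : G}, d ∈ (center ↥(U : Subgroup G)).map (U : Subgroup G).subtype →
      (U : Subgroup G) ≤ centralizer ({d} : Set G) := by
    rintro U _ ⟨d, hd, rfl⟩ u hu
    exact mem_centralizer_singleton_iff.2 (congrArg Subtype.val (mem_center_iff.1 hd ⟨u, hu⟩))
  by_contra hS
  set D := (S : Subgroup G) ⊓ centralizer ({x} : Set G) with hD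
  have hDp : IsPGroup 2 ↥D := S.isPGroup'.to_inf_left
  obtain ⟨U, hU⟩ := hCI S T hne
  obtain ⟨R, hR⟩ := (hDp.comap_subtype : IsPGroup 2 ↥(D.subgroupOf (centralizer ({x} : Set G)))).exists_le_sylow
  obtain ⟨V, hV⟩ := (R.isPGroup'.map (centralizer ({x} : Set G)).subtype).exists_le_sylow
  obtain ⟨⟨c, hcC⟩, hc⟩ := Cfsg.Lib.Invol.exists_conj_mem_sylow
    (U.isPGroup'.comap_subtype : IsPGroup 2 ↥((U : Subgroup G).subgroupOf (centralizer ({x} : Set G)))) R
  -- `V` centralizes `x`: it is the Sylow subgroup containing the conjugate of `U` inside `C(x)`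
  have hVx : (V : Subgroup G) ≤ centralizer ({x} : Set G) := by
    have hle : (U : Subgroup G).map (MulAut.conj c).toMonoidHom ≤
        (R : Subgroup ↥(centralizer ({x} : Set G))).map (centralizer ({x} : Set G)).subtype := by
      rintro _ ⟨u, hu, rfl⟩
      exact ⟨_, hc ⟨u, hcen U (hU hx) hu⟩ hu, rfl⟩
    have e : (U : Subgroup G).map (MulAut.conj c).toMonoidHom = (V : Subgroup G) :=
      eq_of_le_of_card_ge (hle.trans hV) (by
        rw [Nat.card_congr ((U : Subgroup G).equivMapOfInjective _ (MulAut.conj c).injective).toEquiv.symm,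
          U.card_eq_multiplicity, V.card_eq_multiplicity])
    rw [← e]
    rintro _ ⟨u, hu, rfl⟩
    exact mul_mem (mul_mem hcC (hcen U (hU hx) hu)) (inv_mem hcC)
  have hDV : D ≤ (V : Subgroup G) := fun d hd =>
    hV ⟨⟨d, hd.2⟩, hR hd, rfl⟩
  have hVS : S ≠ V := fun h => hS (h ▸ hVx)
  obtain ⟨W, hW⟩ := hCI S V hVS
  have hDW : ∀ d ∈ D, (W : Subgroup G) ≤ centralizer ({d} : Set G) := fun d hd =>
    hcen W (hW ⟨hd.1, hDV hd⟩)
  have hWC : (W : Subgroup G) ≤ centralizer (D : Set G) := fun w hw =>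
    mem_centralizer_iff.2 fun d hd => (mem_centralizer_singleton_iff.1 (hDW d hd hw)).symm
  have hne' : D.subgroupOf (S : Subgroup G) ≠ ⊤ := fun h => hS ((subgroupOf_eq_top.1 h).trans inf_le_right)
  obtain ⟨y, hyN, hyD⟩ := SetLike.exists_of_lt
    (@Group.normalizerCondition_of_isNilpotent _ _ S.isPGroup'.isNilpotent _ (lt_top_iff_ne_top.2 hne'))
  have hyn : (y : G) ∈ normalizer (D : Set G) := by
    refine mem_normalizer_fintype ?_
    intro d hd
    exact ((mem_normalizer_iff.1 hyN) ⟨d, hd.1⟩).1 hd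
  set N := normalizer (D : Set G) with hN
  have hWN : (W : Subgroup G) ≤ N := hWC.trans (centralizer_le_normalizer _)
  have hyp : IsPGroup 2 ↥((zpowers (y : G)).subgroupOf N) :=
    (S.isPGroup'.to_le (zpowers_le.2 y.2)).comap_subtype
  obtain ⟨⟨n, hn⟩, hnW⟩ := Cfsg.Lib.Invol.exists_conj_mem_sylow hyp (W.subtype hWN)
  have h1 : n * (y : G) * n⁻¹ ∈ (W : Subgroup G) := hnW ⟨(y : G), hyn⟩ (mem_zpowers (y : G))
  have hxD : x ∈ D := ⟨hx.1, mem_centralizer_singleton_iff.2 rfl⟩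
  have h2 := mem_centralizer_singleton_iff.1 (hDW _ ((mem_normalizer_iff.1 hn x).1 hxD) h1)
  refine hyD ⟨y.2, mem_centralizer_singleton_iff.2 ?_⟩
  calc (y : G) * x = n⁻¹ * (n * (y : G) * n⁻¹ * (n * x * n⁻¹)) * n := by group
    _ = x * y := by rw [h2]; group

theorem inter_le_center (hCI : ∀ S T : Sylow 2 G, S ≠ T → ∃ U : Sylow 2 G,
      (S : Subgroup G) ⊓ (T : Subgroup G) ≤ (center ↥(U : Subgroup G)).map (U : Subgroup G).subtype)
    {S T : Sylow 2 G} (hne : S ≠ T) :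
    (S : Subgroup G) ⊓ (T : Subgroup G) ≤ (center ↥(S : Subgroup G)).map (S : Subgroup G).subtype :=
  fun x hx => ⟨⟨x, hx.1⟩, mem_center_iff.2 fun s => Subtype.ext
    (mem_centralizer_singleton_iff.1 (sylow_le_centralizer_of_mem hCI hne hx s.2)), rfl⟩

end Cfsg.Lib.TwoFus
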