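import Mathlib
import Cfsg.Agent.Lib.ZStar.RankOne
import Cfsg.Agent.Lib.ZStar.BrauerSuzuki
import Cfsg.Agent.Lib.Transfer.Basic
import Cfsg.Prelude.Def_TwoFusion

/-!
A Sylow 2-subgroup with a quaternion direct factor and all involutions central: the product of the
involutions of the quaternion-like factors is isolated.
-/

set_option autoImplicit false
set_option maxHeartbeats 400000

namespace Cfsg.Lib.TwoFus

open Subgroup
open scoped commutatorElement IsMulCommutative

variable {S : Type*} [Group S]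

/-- `v` is the involution of a direct factor of `S` having only one involution, lying in the derived
subgroup of that factor. -/
def IsFactorInvol (v : S) : Prop :=
  ∃ A B : Subgroup S, A.Normal ∧ B.Normal ∧ A ⊓ B = ⊥ ∧ A ⊔ B = ⊤ ∧ v ∈ ⁅A, A⁆ ∧ v ∈ A ∧
    orderOf v = 2 ∧ ∀ u ∈ A, u ^ 2 = 1 → u = 1 ∨ u = v

theorem factorInvol_map {T : Type*} [Group T] (e : S ≃* T) {v : S} (h : IsFactorInvol v) :
    IsFactorInvol (e v) := by
  obtain ⟨A, B, hA, hB, hi, hs, hvc, hvA, ho, hu⟩ := h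
  refine ⟨A.map e.toMonoidHom, B.map e.toMonoidHom, hA.map _ e.surjective, hB.map _ e.surjective,
    ?_, ?_, ?_, mem_map_of_mem _ hvA, ?_, ?_⟩
  · rw [← Subgroup.map_inf _ _ _ e.injective, hi, Subgroup.map_bot]
  · rw [← Subgroup.map_sup, hs, Subgroup.map_top_of_surjective _ e.surjective]
  · rw [← Subgroup.map_commutator]
    exact mem_map_of_mem _ hvc
  · rw [e.orderOf_eq, ho]
  · rintro _ ⟨u, hu', rfl⟩ h2
    have : u ^ 2 = 1 := e.injective (by rw [map_pow, map_one]; exact h2)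
    rcases hu u hu' this with rfl | rfl
    · exact Or.inl (map_one _)
    · exact Or.inr rfl

theorem exists_factor_mul {A B : Subgroup S} [A.Normal] (hs : A ⊔ B = ⊤) (x : S) :
    ∃ a ∈ A, ∃ b ∈ B, x = a * b := by
  have hx : x ∈ ((A ⊔ B : Subgroup S) : Set S) := by rw [hs]; exact mem_top x
  rw [normal_mul] at hx
  obtain ⟨a, ha, b, hb, rfl⟩ := hx
  exact ⟨a, ha, b, hb, rfl⟩

theorem factor_commute {A B : Subgroup S} [A.Normal] [B.Normal] (hi : A ⊓ B = ⊥) {a b : S}
    (ha : a ∈ A) (hb : b ∈ B) : Commute a b :=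
  commute_of_normal_of_disjoint A B inferInstance inferInstance (disjoint_iff.2 hi) a b ha hb

theorem factorInvol_mem_center {v : S} (h : IsFactorInvol v) : v ∈ center S := by
  obtain ⟨A, B, hA, hB, hi, hs, -, hvA, ho, hu⟩ := h
  refine mem_center_iff.2 fun g => ?_
  have h2 : (g * v * g⁻¹) ^ 2 = 1 := by rw [conj_pow, ← ho, pow_orderOf_eq_one, mul_one, mul_inv_cancel]
  rcases hu _ (hA.conj_mem v hvA g) h2 with h | h
  · rw [conj_eq_one_iff.1 h, mul_one, one_mul]
  · calc g * v = g * v * g⁻¹ * g := by group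
      _ = v * g := by rw [h]

/-- Two different factor involutions lie in each other's complements. -/
theorem factorInvol_mem_compl {v w : S} {A B : Subgroup S} [A.Normal] [B.Normal] (hi : A ⊓ B = ⊥)
    (hs : A ⊔ B = ⊤) (hu : ∀ u ∈ A, u ^ 2 = 1 → u = 1 ∨ u = v)
    [Finite S] (h2S : IsPGroup 2 S) (hw : IsFactorInvol w) (hne : w ≠ v) : w ∈ B := by
  obtain ⟨A', B', hA', hB', -, -, hwc, hwA', hwo, hu'⟩ := hw
  by_contra hwB
  have hAB : A' ⊓ B = ⊥ := by
    by_contra hne'
    have : Fact (Nat.Prime 2) := ⟨Nat.prime_two⟩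
    haveI : Nontrivial ↥(A' ⊓ B) := (Subgroup.nontrivial_iff_ne_bot _).2 hne'
    obtain ⟨u, hu2⟩ := exists_prime_orderOf_dvd_card' (G := ↥(A' ⊓ B)) 2
      ((h2S.to_subgroup (A' ⊓ B)).card_eq_or_dvd.resolve_left Finite.one_lt_card.ne')
    rw [← orderOf_coe] at hu2
    rcases hu' (u : S) u.2.1 (by rw [← hu2]; exact pow_orderOf_eq_one _) with h | h
    · rw [h, orderOf_one] at hu2
      omega
    · exact hwB (h ▸ u.2.2)
  have hle : ⁅A', A'⁆ ≤ A := by
    rw [commutator_le]
    intro g₁ hg₁ g₂ hg₂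
    obtain ⟨x₁, hx₁, y₁, hy₁, rfl⟩ := exists_factor_mul hs g₁
    obtain ⟨x₂, hx₂, y₂, hy₂, rfl⟩ := exists_factor_mul hs g₂
    -- the `B`-parts are central in `B`
    have hc : y₁ * y₂ = y₂ * y₁ := by
      have h1 := factor_commute hAB hg₁ hy₂
      have h2 := factor_commute hi hx₁ hy₂
      have e : x₁ * (y₁ * y₂) = x₁ * (y₂ * y₁) := by
        rw [← mul_assoc, h1.eq, ← mul_assoc x₁, h2.eq, mul_assoc]
      exact mul_left_cancel e
    have h12 := factor_commute hi hx₁ hy₂
    have h21 := factor_commute hi hx₂ hy₁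
    have e : ⁅x₁ * y₁, x₂ * y₂⁆ = ⁅x₁, x₂⁆ := by
      rw [commutatorElement_def, commutatorElement_def]
      have e1 : x₁ * y₁ * (x₂ * y₂) = x₁ * x₂ * (y₁ * y₂) := by
        rw [mul_assoc, ← mul_assoc y₁, ← h21.eq, mul_assoc x₂, ← mul_assoc]
      have e2 : x₂ * y₂ * (x₁ * y₁) = x₂ * x₁ * (y₁ * y₂) := by
        rw [mul_assoc, ← mul_assoc y₂, ← h12.eq, mul_assoc x₁, ← hc, ← mul_assoc]
      calc x₁ * y₁ * (x₂ * y₂) * (x₁ * y₁)⁻¹ * (x₂ * y₂)⁻¹
          = x₁ * y₁ * (x₂ * y₂) * (x₂ * y₂ * (x₁ * y₁))⁻¹ := by group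
        _ = x₁ * x₂ * x₁⁻¹ * x₂⁻¹ := by rw [e1, e2]; group
    rw [e]
    exact mul_mem (mul_mem (mul_mem hx₁ hx₂) (inv_mem hx₁)) (inv_mem hx₂)
  rcases hu w (hle hwc) (by rw [← hwo]; exact pow_orderOf_eq_one w) with h | h
  · rw [h, orderOf_one] at hwo
    omega
  · exact hne h

/-- A central involution fixed by all automorphisms, from one factor involution. -/
theorem exists_fixed_central_involution [Finite S] (h2S : IsPGroup 2 S) {v : S}
    (hv : IsFactorInvol v) : ∃ x : S, x ∈ center S ∧ orderOf x = 2 ∧ ∀ e : MulAut S, e x = x := by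
  classical
  have := Fintype.ofFinite S
  let c : S → center S := fun w => if h : IsFactorInvol w then ⟨w, factorInvol_mem_center h⟩ else 1
  let F := Finset.univ.filter fun w : S => IsFactorInvol w
  have hc : ∀ w ∈ F, ((c w : center S) : S) = w := fun w hw => by
    simp only [c, dif_pos (Finset.mem_filter.1 hw).2]
  refine ⟨((∏ w ∈ F, c w : center S) : S), (∏ w ∈ F, c w).2, ?_, fun e => ?_⟩
  · have hvF : v ∈ F := Finset.mem_filter.2 ⟨Finset.mem_univ v, hv⟩
    obtain ⟨A, B, hA, hB, hi, hs, -, hvA, ho, hu⟩ := hv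
    refine orderOf_eq_prime ?_ fun h1 => ?_
    · rw [← Subgroup.coe_pow, ← Finset.prod_pow, Finset.prod_eq_one fun w hw => ?_, Subgroup.coe_one]
      refine Subtype.ext ?_
      rw [Subgroup.coe_pow, hc w hw]
      obtain ⟨-, -, -, -, -, -, -, -, hwo, -⟩ := (Finset.mem_filter.1 hw).2
      rw [← hwo]
      exact pow_orderOf_eq_one w
    · rw [← Finset.mul_prod_erase F c hvF, Subgroup.coe_mul, hc v hvF] at h1
      have hrest : ((∏ w ∈ F.erase v, c w : center S) : S) ∈ B := by
        refine Finset.prod_induction c (fun z => (z : S) ∈ B) (fun a b ha hb => B.mul_mem ha hb)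
          B.one_mem fun w hw => ?_
        rw [Finset.mem_erase] at hw
        rw [hc w hw.2]
        exact factorInvol_mem_compl hi hs hu h2S (Finset.mem_filter.1 hw.2).2 hw.1
      have hvB : v ∈ B := by
        rw [eq_inv_of_mul_eq_one_left h1]
        exact B.inv_mem hrest
      have : v ∈ A ⊓ B := ⟨hvA, hvB⟩
      rw [hi, mem_bot] at this
      rw [this, orderOf_one] at ho
      omega
  · have key : ∀ (T : Finset S), (∀ w ∈ T, IsFactorInvol w) →
        e ((∏ w ∈ T, c w : center S) : S) = ((∏ w ∈ T.image e, c w : center S) : S) := by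
      intro T hT
      induction T using Finset.induction_on with
      | empty => simp
      | insert a T ha ih =>
        have hTa := hT a (Finset.mem_insert_self a T)
        rw [Finset.image_insert, Finset.prod_insert ha, Finset.prod_insert (by
          simp only [Finset.mem_image, not_exists, not_and]
          exact fun x hx h => ha (e.injective h ▸ hx))]
        rw [Subgroup.coe_mul, Subgroup.coe_mul, map_mul, ih fun w hw => hT w (Finset.mem_insert_of_mem hw)]
        congr 1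
        simp only [c, dif_pos hTa, dif_pos (factorInvol_map e hTa)]
    rw [key F fun w hw => (Finset.mem_filter.1 hw).2]
    have hF : F.image e = F := by
      ext w
      simp only [Finset.mem_image, F, Finset.mem_filter, Finset.mem_univ, true_and]
      refine ⟨fun ⟨a, ha, h⟩ => h ▸ factorInvol_map e ha, fun h => ⟨e.symm w, factorInvol_map e.symm h, ?_⟩⟩
      exact e.apply_symm_apply w
    rw [hF]

/-- A group with a quaternion direct factor in a Sylow 2-subgroup whose involutions are central in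
the other factor is not simple. -/
theorem not_simple_of_quaternion_factor {G : Type*} [Group G] [Finite G] (P : Sylow 2 G)
    (Q R : Subgroup G) (hQR : Cfsg.IsInternalDirectProduct Q R (P : Subgroup G)) {m : ℕ} [NeZero m]
    (hm : 2 ≤ m) (eQ : ↥Q ≃* QuaternionGroup m)
    (hR : ∀ r ∈ R, orderOf r = 2 → ∀ s ∈ R, r * s = s * r) : ¬ IsSimpleGroup G := by
  intro hsimple
  have : Fact (Nat.Prime 2) := ⟨Nat.prime_two⟩
  obtain ⟨hQP, hRP, hcomm, hi, hs⟩ := hQR
  set A := Q.subgroupOf (P : Subgroup G) with hAdef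
  set B := R.subgroupOf (P : Subgroup G) with hBdef
  have hAB : A ⊔ B = ⊤ := by
    rw [hAdef, hBdef, ← subgroupOf_sup hQP hRP, hs, subgroupOf_self]
  have hiAB : A ⊓ B = ⊥ := by
    rw [eq_bot_iff]
    rintro x ⟨hxA, hxB⟩
    have : (x : G) ∈ Q ⊓ R := ⟨hxA, hxB⟩
    rw [hi, mem_bot] at this
    exact (mem_bot).2 (Subtype.ext this)
  have hcAB : ∀ a ∈ A, ∀ b ∈ B, a * b = b * a := fun a ha b hb => Subtype.ext (hcomm _ ha _ hb)
  have hAn : A.Normal := by
    refine normalizer_eq_top_iff.1 (eq_top_iff.2 (hAB ▸ sup_le le_normalizer ?_))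
    exact fun b hb => centralizer_le_normalizer _ (mem_centralizer_iff.2 fun a ha => hcAB a ha b hb)
  have hBn : B.Normal := by
    refine normalizer_eq_top_iff.1 (eq_top_iff.2 (hAB ▸ sup_le ?_ le_normalizer))
    exact fun a ha => centralizer_le_normalizer _ (mem_centralizer_iff.2 fun b hb => (hcAB a ha b hb).symm)
  -- the quaternion involution
  set q₀ : QuaternionGroup m := QuaternionGroup.a (m : ZMod (2 * m)) with hq₀
  set z : G := ((eQ.symm q₀ : Q) : G) with hz
  have hq₀ne : q₀ ≠ 1 := by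
    rw [hq₀, QuaternionGroup.one_def, Ne, QuaternionGroup.a.injEq, ZMod.natCast_eq_zero_iff]
    exact fun h => absurd (Nat.le_of_dvd (by omega) h) (by omega)
  have hq₀sq : q₀ ^ 2 = 1 := by
    rw [hq₀, sq, QuaternionGroup.a_mul_a, QuaternionGroup.one_def, ← Nat.cast_add, ← two_mul,
      ZMod.natCast_self]
  have hzQ : z ∈ Q := (eQ.symm q₀).2
  have hzo : orderOf z = 2 := by
    rw [hz, orderOf_coe, MulEquiv.orderOf_eq, orderOf_eq_prime hq₀sq hq₀ne]
  have huniq : ∀ u ∈ A, u ^ 2 = 1 → u = 1 ∨ u = ⟨z, hQP hzQ⟩ := by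
    intro u hu h2
    have h2' : (eQ ⟨(u : G), hu⟩) ^ 2 = 1 := by
      rw [← map_pow, ← map_one eQ]
      exact congrArg eQ (Subtype.ext (by
        have := congrArg Subtype.val h2
        rwa [Subgroup.coe_pow] at this))
    rcases Cfsg.Lib.ZStar.quaternion_sq_eq_one h2' with h | h
    · left
      refine Subtype.ext ?_
      have h' : (⟨(u : G), hu⟩ : Q) = 1 := eQ.map_eq_one_iff.1 h
      exact (congrArg Subtype.val h' :)
    · right
      refine Subtype.ext ?_
      have e : (⟨(u : G), hu⟩ : Q) = eQ.symm q₀ := by rw [← eQ.symm_apply_apply ⟨(u : G), hu⟩, h]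
      exact (congrArg Subtype.val e :)
  have hnc : ∃ a b : Q, a * b ≠ b * a := by
    by_contra h
    push_neg at h
    have h1 : (QuaternionGroup.a 1 : QuaternionGroup m) * QuaternionGroup.xa 0 =
        QuaternionGroup.xa 0 * QuaternionGroup.a 1 := by
      have := congrArg eQ (h (eQ.symm (QuaternionGroup.a 1)) (eQ.symm (QuaternionGroup.xa 0)))
      simpa using this
    rw [QuaternionGroup.a_mul_xa, QuaternionGroup.xa_mul_a, QuaternionGroup.xa.injEq, zero_add,
      zero_sub, eq_comm, eq_neg_iff_add_eq_zero] at h1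
    have h2 : ((2 : ℕ) : ZMod (2 * m)) = 0 := by push_cast; rw [← h1]; norm_num
    rw [ZMod.natCast_eq_zero_iff] at h2
    have := Nat.le_of_dvd (by norm_num) h2
    omega
  have hzc : (⟨z, hQP hzQ⟩ : ↥(P : Subgroup G)) ∈ ⁅A, A⁆ := by
    obtain ⟨a, b, hab⟩ := hnc
    set c : ↥(P : Subgroup G) := ⁅(⟨(a : G), hQP a.2⟩ : ↥(P : Subgroup G)), ⟨(b : G), hQP b.2⟩⁆
    have hcA : c ∈ ⁅A, A⁆ := commutator_mem_commutator a.2 b.2
    have hc1 : c ≠ 1 := fun h => hab (Subtype.ext (commutatorElement_eq_one_iff_mul_comm.1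
      (congrArg Subtype.val h : ⁅(a : G), (b : G)⁆ = 1)))
    haveI : Nontrivial ↥⁅A, A⁆ := ⟨⟨⟨c, hcA⟩, 1, fun h => hc1 (congrArg Subtype.val h)⟩⟩
    obtain ⟨u, hu⟩ := exists_prime_orderOf_dvd_card' (G := ↥⁅A, A⁆) 2
      ((P.isPGroup'.to_subgroup ⁅A, A⁆).card_eq_or_dvd.resolve_left Finite.one_lt_card.ne')
    rw [← orderOf_coe] at hu
    have huA : (u : ↥(P : Subgroup G)) ∈ A := commutator_le_left A A u.2
    rcases huniq _ huA (orderOf_dvd_iff_pow_eq_one.1 (dvd_of_eq hu)) with h | h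
    · rw [h, orderOf_one] at hu
      omega
    · exact h ▸ u.2
  have hfac : IsFactorInvol (⟨z, hQP hzQ⟩ : ↥(P : Subgroup G)) :=
    ⟨A, B, hAn, hBn, hiAB, hAB, hzc, hzQ, by rw [← orderOf_coe]; exact hzo, huniq⟩
  obtain ⟨x, hxc, hxo, hxfix⟩ := exists_fixed_central_involution P.isPGroup' hfac
  -- all involutions of `P` are central in `P`
  have hcentral : ∀ u : ↥(P : Subgroup G), u ^ 2 = 1 → u ∈ center ↥(P : Subgroup G) := by
    intro u hu
    obtain ⟨a, ha, b, hb, rfl⟩ := exists_factor_mul (A := A) hAB u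
    have hc : Commute a b := hcAB a ha b hb
    rw [hc.mul_pow] at hu
    have hb2 : b ^ 2 ∈ A ⊓ B := ⟨by
      rw [eq_inv_of_mul_eq_one_right hu]
      exact A.inv_mem (A.pow_mem ha 2), B.pow_mem hb 2⟩
    rw [hiAB, mem_bot] at hb2
    rw [hb2, mul_one] at hu
    refine mul_mem ?_ ?_
    · rcases huniq a ha hu with rfl | rfl
      · exact one_mem _
      · exact factorInvol_mem_center hfac
    · rcases eq_or_ne b 1 with rfl | hb1
      · exact one_mem _
      refine mem_center_iff.2 fun g => ?_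
      obtain ⟨c, hc', d, hd, rfl⟩ := exists_factor_mul (A := A) hAB g
      have h1 : b * d = d * b := Subtype.ext
        (hR (b : G) hb ((orderOf_coe b).trans (orderOf_eq_prime hb2 hb1)) (d : G) hd)
      calc c * d * b = c * (b * d) := by rw [h1, mul_assoc]
        _ = b * (c * d) := by rw [← mul_assoc, hcAB c hc' b hb, mul_assoc]
  have hxo' : orderOf (x : G) = 2 := by rw [orderOf_coe]; exact hxo
  have hcent : ∀ y : ↥(P : Subgroup G), y ^ 2 = 1 →
      (y : G) ∈ centralizer ((P : Subgroup G) : Set G) := fun y hy =>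
    mem_centralizer_iff.2 fun s hs => congrArg Subtype.val (mem_center_iff.1 (hcentral y hy) ⟨s, hs⟩)
  have hiso : ∀ g : G, g * (x : G) * g⁻¹ ∈ P → g * (x : G) * g⁻¹ = x := by
    intro g hg
    have hy2 : (⟨g * (x : G) * g⁻¹, hg⟩ : ↥(P : Subgroup G)) ^ 2 = 1 := by
      refine Subtype.ext ?_
      show (g * (x : G) * g⁻¹) ^ 2 = 1
      rw [conj_pow, orderOf_dvd_iff_pow_eq_one.1 (dvd_of_eq hxo'), mul_one, mul_inv_cancel]
    obtain ⟨n, hn, he⟩ := P.conj_eq_normalizer_conj_of_mem_centralizer (x : G) g⁻¹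
      (hcent x (orderOf_dvd_iff_pow_eq_one.1 (dvd_of_eq hxo))) (by rw [inv_inv]; exact hcent _ hy2)
    rw [inv_inv] at he
    rw [he]
    have := congrArg Subtype.val (hxfix ((P : Subgroup G).normalizerMonoidHom ⟨n⁻¹, inv_mem hn⟩))
    change n⁻¹ * (x : G) * n⁻¹⁻¹ = x at this
    rwa [inv_inv] at this
  have hz' := fun g => Cfsg.Lib.ZStar.zstar_sylow P (x : G) hxo' x.2 hiso g
  haveI : (Cfsg.oddCore G).Normal := Cfsg.Lib.Transfer.pPrimeCore_normal 2
  rcases Subgroup.Normal.eq_bot_or_eq_top (inferInstance : (Cfsg.oddCore G).Normal) with h | h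
  · have hxz : (x : G) ∈ center G := mem_center_iff.2 fun g => by
      have := hz' g
      rw [h, mem_bot, mul_inv_eq_one, mul_inv_eq_iff_eq_mul] at this
      exact this.symm
    rcases Subgroup.Normal.eq_bot_or_eq_top (inferInstance : (center G).Normal) with h' | h'
    · rw [h', mem_bot] at hxz
      rw [hxz, orderOf_one] at hxo'
      omega
    · obtain ⟨a, b, hab⟩ := hnc
      exact hab (Subtype.ext (mem_center_iff.1 (h'.symm ▸ mem_top (b : G)) (a : G)))
  · have h1 := Cfsg.Lib.Transfer.coprime_card_pPrimeCore (G := G) 2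
    change (Cfsg.pPrimeCore 2 G) = ⊤ at h
    rw [h, Subgroup.card_top, Nat.coprime_two_right] at h1
    have h2 : 2 ∣ Nat.card G := hxo' ▸ orderOf_dvd_natCard (x : G)
    exact Nat.not_even_iff_odd.2 h1 (even_iff_two_dvd.2 h2)

end Cfsg.Lib.TwoFus
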