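import Mathlib
import Cfsg.Prelude.Def_Involutions
import Cfsg.Agent.Lib.Invol.Dihedral

/-!
Strongly embedded subgroups: one class of involutions, involutions in cosets, transitivity of
`H ∩ uHu` on the involutions of `H`.
-/

set_option autoImplicit false

namespace Cfsg.Lib.TwoFus

open Cfsg.Lib.Invol

variable {G : Type*} [Group G] [Finite G] {H : Subgroup G}

theorem se_mem (hH : Cfsg.IsStronglyEmbedded H) {g t : G} (ht : t ∈ H) (ht2 : orderOf t = 2)
    (hg : g * t * g⁻¹ ∈ H) : g ∈ H := by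
  by_contra hgH
  have hodd := hH.2.2 g hgH
  have hmem : g * t * g⁻¹ ∈ H ⊓ H.map (MulAut.conj g).toMonoidHom := ⟨hg, ⟨t, ht, rfl⟩⟩
  have h2 : 2 ∣ Nat.card ↥(H ⊓ H.map (MulAut.conj g).toMonoidHom) :=
    (orderTwo_conj g ht2) ▸ Subgroup.orderOf_dvd_natCard _ hmem
  exact Nat.not_odd_iff_even.2 (even_iff_two_dvd.2 h2) hodd

theorem se_commute_mem (hH : Cfsg.IsStronglyEmbedded H) {g t : G} (ht : t ∈ H) (ht2 : orderOf t = 2)
    (hg : Commute g t) : g ∈ H :=
  se_mem hH ht ht2 (by rw [hg.eq, mul_inv_cancel_right]; exact ht)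

theorem se_exists (hH : Cfsg.IsStronglyEmbedded H) : ∃ t ∈ H, orderOf t = 2 := by
  have : Fact (Nat.Prime 2) := ⟨Nat.prime_two⟩
  obtain ⟨t, ht⟩ := exists_prime_orderOf_dvd_card' (G := ↥H) 2 (even_iff_two_dvd.1 hH.2.1)
  exact ⟨t, t.2, by rwa [Subgroup.orderOf_coe]⟩

theorem se_exists_not_mem (hH : Cfsg.IsStronglyEmbedded H) : ∃ u, u ∉ H ∧ orderOf u = 2 := by
  obtain ⟨t, ht, ht2⟩ := se_exists hH
  by_contra hno
  push_neg at hno
  refine hH.1 (eq_top_iff.2 fun g _ => se_mem hH ht ht2 ?_)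
  by_contra h
  exact hno _ h (orderTwo_conj g ht2)

theorem se_odd (hH : Cfsg.IsStronglyEmbedded H) {t u : G} (ht : t ∈ H) (ht2 : orderOf t = 2)
    (hu : u ∉ H) (hu2 : orderOf u = 2) : Odd (orderOf (u * t)) := by
  by_contra h
  rw [Nat.not_odd_iff_even] at h
  exact hu (se_commute_mem hH (se_commute_mem hH ht ht2 (commute_half_right hu2 ht2 h))
    (orderTwo_half h) (commute_half_left hu2 ht2 h).symm)

theorem se_isConj (hH : Cfsg.IsStronglyEmbedded H) (a b : G) (ha : orderOf a = 2)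
    (hb : orderOf b = 2) : IsConj a b := by
  obtain ⟨u, hu, hu2⟩ := se_exists_not_mem hH
  obtain ⟨t, ht, ht2⟩ := se_exists hH
  have key : ∀ a : G, orderOf a = 2 → IsConj a u := by
    intro a ha
    by_cases haH : a ∈ H
    · exact (isConj_of_odd hu2 ha (se_odd hH haH ha hu hu2)).symm
    · exact (isConj_of_odd ha ht2 (se_odd hH ht ht2 haH ha)).trans
        (isConj_of_odd hu2 ht2 (se_odd hH ht ht2 hu hu2)).symm
  exact (key a ha).trans (key b hb).symm

/-- A nontrivial element of `H` inverted by an involution outside `H` commutes with no involution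
of `H`. -/
theorem se_eq_one (hH : Cfsg.IsStronglyEmbedded H) {v d t : G} (hv2 : orderOf v = 2) (hv : v ∉ H)
    (hd : d ∈ H) (hinv : v * d * v⁻¹ = d⁻¹) (ht : t ∈ H) (ht2 : orderOf t = 2)
    (hc : Commute d t) : d = 1 := by
  have hvH : v ∉ H := hv
  have hodd : Odd (orderOf d) := by
    have hmem : d⁻¹ ∈ H ⊓ H.map (MulAut.conj v).toMonoidHom :=
      ⟨H.inv_mem hd, ⟨d, hd, hinv⟩⟩
    have h1 := Subgroup.orderOf_dvd_natCard _ hmem
    rw [orderOf_inv] at h1
    exact (hH.2.2 v hv).of_dvd_nat h1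
  obtain ⟨c, hc', hcv⟩ := exists_conj_of_odd ht2 hv2 (by
    have h := se_odd hH ht ht2 hvH hv2
    rwa [← orderOf_inv, mul_inv_rev, inv_of_orderTwo ht2, inv_of_orderTwo hv2] at h)
  -- `c` is a power of `t * v`, so it maps `d` to a power of `d` that commutes with `v`
  have htd : t * d * t⁻¹ = d := by rw [← hc.eq, mul_inv_cancel_right]
  have htv : (t * v) * d * (t * v)⁻¹ = d⁻¹ := by
    calc (t * v) * d * (t * v)⁻¹ = t * (v * d * v⁻¹) * t⁻¹ := by group
      _ = (t * d * t⁻¹)⁻¹ := by rw [hinv]; group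
      _ = d⁻¹ := by rw [htd]
  have hkey : ∀ k : ℕ, Commute ((t * v) ^ k * t * ((t * v) ^ k)⁻¹) d := by
    intro k
    induction k with
    | zero => simpa using hc.symm
    | succ k ih =>
      have h1 : ∀ y : G, Commute y d → Commute ((t * v) * y * (t * v)⁻¹) d := by
        intro y hy
        have h2 : Commute ((t * v) * y * (t * v)⁻¹) d⁻¹ := by
          rw [← htv]
          show _ = _
          calc (t * v) * y * (t * v)⁻¹ * ((t * v) * d * (t * v)⁻¹)
              = (t * v) * (y * d) * (t * v)⁻¹ := by group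
            _ = (t * v) * (d * y) * (t * v)⁻¹ := by rw [hy.eq]
            _ = _ := by group
        simpa using h2.inv_right
      have h3 := h1 _ ih
      rw [pow_succ']
      have e : ∀ a b : G, a * (b * t * b⁻¹) * a⁻¹ = a * b * t * (a * b)⁻¹ := fun a b => by group
      rwa [e] at h3
  have hfo : IsOfFinOrder (t * v) := isOfFinOrder_of_finite _
  obtain ⟨k, rfl⟩ := hfo.mem_powers_iff_mem_zpowers.2 hc'
  have hvd : Commute v d := hcv ▸ hkey k
  have hsq : d = d⁻¹ := by rw [← hinv, hvd.eq, mul_inv_cancel_right]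
  have h2 : orderOf d ∣ 2 := orderOf_dvd_of_pow_eq_one (by rw [sq]; nth_rw 1 [hsq]; group)
  rcases (Nat.dvd_prime Nat.prime_two).1 h2 with h | h
  · exact orderOf_eq_one_iff.1 h
  · rw [h] at hodd
    exact absurd hodd (by decide)

/-- The map used to compare involutions in a coset with involutions in `H`. -/
theorem se_injOn (hH : Cfsg.IsStronglyEmbedded H) {u t : G} (hu2 : orderOf u = 2) (hu : u ∉ H)
    (ht : t ∈ H) (ht2 : orderOf t = 2) {v w : G} (hv2 : orderOf v = 2) (hw2 : orderOf w = 2)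
    (hv : u * v ∈ H) (hw : u * w ∈ H)
    (heq : (u * v) * t * (u * v)⁻¹ = (u * w) * t * (u * w)⁻¹) : v = w := by
  have hd : w * v ∈ H := by
    have := H.mul_mem (H.inv_mem hw) hv
    rwa [mul_inv_rev, inv_of_orderTwo hw2, inv_of_orderTwo hu2,
      show w * u * (u * v) = w * (u * u) * v by group, mul_self_of_orderTwo hu2, mul_one] at this
  have hwH : w ∉ H := fun h => hu (by simpa using H.mul_mem hw (H.inv_mem h))
  have hinv : w * (w * v) * w⁻¹ = (w * v)⁻¹ := left_conj_mul hw2 hv2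
  have hc : Commute (w * v) t := by
    have h1 : v * t * v⁻¹ = w * t * w⁻¹ := by
      calc v * t * v⁻¹ = u⁻¹ * ((u * v) * t * (u * v)⁻¹) * u := by group
        _ = u⁻¹ * ((u * w) * t * (u * w)⁻¹) * u := by rw [heq]
        _ = w * t * w⁻¹ := by group
    have h2 : (w * v) * t * (w * v)⁻¹ = t := by
      calc (w * v) * t * (w * v)⁻¹ = w * (v * t * v⁻¹) * w⁻¹ := by group
        _ = (w * w) * t * (w * w)⁻¹ := by rw [h1]; group
        _ = t := by rw [mul_self_of_orderTwo hw2, one_mul, inv_one, mul_one]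
    show w * v * t = t * (w * v)
    rw [mul_inv_eq_iff_eq_mul] at h2
    exact h2
  have h := se_eq_one hH hw2 hwH hd hinv ht ht2 hc
  have h' := eq_inv_of_mul_eq_one_right h
  rw [inv_of_orderTwo hw2] at h'
  exact h'

open scoped Classical in
theorem se_card_coset (hH : Cfsg.IsStronglyEmbedded H) (c : G ⧸ H) :
    Nat.card {i : G // orderOf i = 2 ∧ (QuotientGroup.mk i : G ⧸ H) = c} =
      Nat.card {t : G // orderOf t = 2 ∧ t ∈ H} := by
  have : Fintype (G ⧸ H) := Fintype.ofFinite _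
  set m := Nat.card {t : G // orderOf t = 2 ∧ t ∈ H} with hm
  have hle : ∀ c : G ⧸ H,
      Nat.card {i : G // orderOf i = 2 ∧ (QuotientGroup.mk i : G ⧸ H) = c} ≤ m := by
    intro c
    by_cases hne : ∃ u : G, orderOf u = 2 ∧ (QuotientGroup.mk u : G ⧸ H) = c
    swap
    · have : IsEmpty {i : G // orderOf i = 2 ∧ (QuotientGroup.mk i : G ⧸ H) = c} :=
        ⟨fun i => hne ⟨i.1, i.2⟩⟩
      simp
    obtain ⟨u, hu2, huc⟩ := hne
    by_cases huH : u ∈ H
    · refine Nat.card_le_card_of_injective (fun i => ⟨i.1, i.2.1, ?_⟩) fun a b h =>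
        Subtype.ext (congrArg (fun z => z.1) h)
      have h1 := QuotientGroup.eq.1 (huc.trans i.2.2.symm)
      simpa using H.mul_mem huH h1
    obtain ⟨t, ht, ht2⟩ := se_exists hH
    have hmem : ∀ i : {i : G // orderOf i = 2 ∧ (QuotientGroup.mk i : G ⧸ H) = c}, u * i.1 ∈ H := by
      intro i
      have h1 := QuotientGroup.eq.1 (huc.trans i.2.2.symm)
      rwa [inv_of_orderTwo hu2] at h1
    refine Nat.card_le_card_of_injective (fun i => ⟨(u * i.1) * t * (u * i.1)⁻¹,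
      orderTwo_conj _ ht2, H.mul_mem (H.mul_mem (hmem i) ht) (H.inv_mem (hmem i))⟩) fun a b h => ?_
    exact Subtype.ext (se_injOn hH hu2 huH ht ht2 a.2.1 b.2.1 (hmem a) (hmem b)
      (congrArg (fun z => z.1) h))
  have hfix : ∀ (i g : G), i • (g : G ⧸ H) = (g : G ⧸ H) ↔ g⁻¹ * i * g ∈ H := by
    intro i g
    rw [eq_comm, MulAction.Quotient.smul_coe, QuotientGroup.eq, smul_eq_mul, mul_assoc]
  have hex : ∀ i : {i : G // orderOf i = 2}, ∃ d : G ⧸ H, i.1 • d = d := by
    intro i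
    obtain ⟨t, ht, ht2⟩ := se_exists hH
    obtain ⟨g, hg⟩ := isConj_iff.1 (se_isConj hH t i.1 ht2 i.2)
    refine ⟨(g : G ⧸ H), (hfix _ _).2 ?_⟩
    rw [← hg]
    simpa [mul_assoc] using ht
  have huniq : ∀ (i : G), orderOf i = 2 → ∀ d e : G ⧸ H, i • d = d → i • e = e → d = e := by
    intro i hi d e hd he
    obtain ⟨a, rfl⟩ := QuotientGroup.mk_surjective d
    obtain ⟨b, rfl⟩ := QuotientGroup.mk_surjective e
    refine QuotientGroup.eq.2 (se_mem hH ((hfix _ _).1 he) ?_ ?_)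
    · simpa using orderTwo_conj b⁻¹ hi
    · have : a⁻¹ * b * (b⁻¹ * i * b) * (a⁻¹ * b)⁻¹ = a⁻¹ * i * a := by group
      rw [this]
      exact (hfix _ _).1 hd
  have hfib : ∀ d : G ⧸ H, Nat.card {i : G // orderOf i = 2 ∧ i • d = d} = m := by
    intro d
    obtain ⟨g, rfl⟩ := QuotientGroup.mk_surjective d
    refine Nat.card_congr ((MulAut.conj g⁻¹).toEquiv.subtypeEquiv fun i => ?_)
    simp only [MulEquiv.toEquiv_eq_coe, EquivLike.coe_coe]
    rw [MulEquiv.orderOf_eq, MulAut.conj_apply, inv_inv, hfix]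
  have htot : ∑ d : G ⧸ H, Nat.card {i : G // orderOf i = 2 ∧ i • d = d} =
      ∑ d : G ⧸ H, Nat.card {i : G // orderOf i = 2 ∧ (QuotientGroup.mk i : G ⧸ H) = d} := by
    rw [← Nat.card_sigma, ← Nat.card_sigma]
    choose f hf using hex
    refine Nat.card_congr ?_
    exact {
      toFun := fun x => ⟨QuotientGroup.mk x.2.1, x.2.1, x.2.2.1, rfl⟩
      invFun := fun x => ⟨f ⟨x.2.1, x.2.2.1⟩, x.2.1, x.2.2.1, hf ⟨x.2.1, x.2.2.1⟩⟩
      left_inv := by
        rintro ⟨d, i, hi, hd⟩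
        have e : f ⟨i, hi⟩ = d := huniq i hi _ _ (hf ⟨i, hi⟩) hd
        subst e
        rfl
      right_inv := by
        rintro ⟨d, i, hi, rfl⟩
        rfl }
  simp only [hfib] at htot
  exact ((Finset.sum_eq_sum_iff_of_le fun d _ => hle d).1 htot.symm c (Finset.mem_univ c))

/-- `H ∩ uHu` is transitive on the involutions of `H`. -/
theorem se_transitive (hH : Cfsg.IsStronglyEmbedded H) {u s t : G} (hu2 : orderOf u = 2)
    (hu : u ∉ H) (hs : s ∈ H) (hs2 : orderOf s = 2) (ht : t ∈ H) (ht2 : orderOf t = 2) :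
    ∃ d ∈ H ⊓ H.map (MulAut.conj u).toMonoidHom, d * s * d⁻¹ = t := by
  have hcard := se_card_coset hH (QuotientGroup.mk u : G ⧸ H)
  have hmem : ∀ i : {i : G // orderOf i = 2 ∧ (QuotientGroup.mk i : G ⧸ H) = QuotientGroup.mk u},
      u * i.1 ∈ H := by
    intro i
    have h1 := QuotientGroup.eq.1 i.2.2.symm
    rwa [inv_of_orderTwo hu2] at h1
  let f : {i : G // orderOf i = 2 ∧ (QuotientGroup.mk i : G ⧸ H) = QuotientGroup.mk u} →
      {t : G // orderOf t = 2 ∧ t ∈ H} := fun i => ⟨(u * i.1) * s * (u * i.1)⁻¹,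
      orderTwo_conj _ hs2, H.mul_mem (H.mul_mem (hmem i) hs) (H.inv_mem (hmem i))⟩
  have hinj : Function.Injective f := fun a b h =>
    Subtype.ext (se_injOn hH hu2 hu hs hs2 a.2.1 b.2.1 (hmem a) (hmem b)
      (congrArg (fun z => z.1) h))
  obtain ⟨i, hi⟩ := (hinj.bijective_of_nat_card_le hcard.ge).2 ⟨t, ht2, ht⟩
  refine ⟨u * i.1, ⟨hmem i, (u * i.1)⁻¹, H.inv_mem (hmem i), ?_⟩, congrArg (fun z => z.1) hi⟩
  show u * (u * i.1)⁻¹ * u⁻¹ = u * i.1
  rw [mul_inv_rev, inv_of_orderTwo i.2.1, inv_of_orderTwo hu2, mul_assoc, mul_assoc,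
    mul_self_of_orderTwo hu2, mul_one]

end Cfsg.Lib.TwoFus
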