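import Mathlib
import Cfsg.Agent.Lib.ZStar.UniqueInvolution
import Cfsg.Agent.Lib.Transfer.MaximalClass

/-!
# 2-groups with an involution whose centralizer has at most three involutions
-/

set_option autoImplicit false

namespace Cfsg.Lib.TwoFus.ThreeInvolutions

open Subgroup

variable {X : Type*} [Group X] [Finite X]

/-- `x` has exactly the involutions `x, w, x * w` in its centralizer, `w` is central. -/
structure Three (x w : X) : Prop where
  hx : x * x = 1
  hx1 : x ≠ 1
  hw : w * w = 1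
  hw1 : w ≠ 1
  hxw : x ≠ w
  hcen : ∀ s : X, s * w = w * s
  hinv : ∀ u : X, u * u = 1 → u ≠ 1 → x * u = u * x → u = x ∨ u = w ∨ u = x * w

/-- Membership in the four group `{1, x, w, x * w}`. -/
def InV (x w t : X) : Prop := t = 1 ∨ t = x ∨ t = w ∨ t = x * w

theorem card_le_four (x w : X) (T : Subgroup X) (h : ∀ t ∈ T, InV x w t) : Nat.card T ≤ 4 := by
  classical
  have : Nat.card T ≤ ({1, x, w, x * w} : Finset X).card := by
    rw [← Nat.card_eq_finsetCard]
    exact Nat.card_mono (Finset.finite_toSet _) fun t ht => by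
      rcases h t ht with h | h | h | h <;> simp [h]
  exact this.trans Finset.card_le_four

/-- An element of `C(x)` outside the four group with square inside it. -/
theorem exists_step {x w : X} (h : Three x w) (hG : IsPGroup 2 X)
    (P : X → Prop) (hP : ∀ t, P t → P (t * t)) {t : X} (ht : ¬ InV x w t) (hPt : P t) :
    ∃ t', P t' ∧ ¬ InV x w t' ∧ InV x w (t' * t') := by
  classical
  obtain ⟨k, hk⟩ := hG t
  induction k generalizing t with
  | zero => exact absurd (Or.inl (by simpa using hk)) ht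
  | succ k ih =>
    by_cases h2 : InV x w (t * t)
    · exact ⟨t, hPt, ht, h2⟩
    · exact ih h2 (hP t hPt) (by rwa [← sq, ← pow_mul, ← pow_succ'])

theorem exists_almost_central {x w : X} (h : Three x w) (hG : IsPGroup 2 X)
    (hnc : ¬ ∀ s, s * x = x * s) (hT : 4 < Nat.card (centralizer ({x} : Set X))) :
    ∃ e : X, e * e = 1 ∧ e ≠ 1 ∧ e ≠ w ∧ ∀ s, s * e * s⁻¹ = e ∨ s * e * s⁻¹ = e * w := by
  classical
  haveI := Fact.mk Nat.prime_two
  by_contra hno
  -- a maximal normal abelian subgroup containing `w`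
  set Z := Subgroup.zpowers w with hZ
  have hZmem : ∀ z ∈ Z, z = 1 ∨ z = w := by
    rintro z ⟨k, rfl⟩
    rcases Int.even_or_odd k with ⟨i, rfl⟩ | ⟨i, rfl⟩
    · left; show w ^ (i + i) = 1; rw [← two_mul, zpow_mul, zpow_two, h.hw, one_zpow]
    · right; show w ^ (2 * i + 1) = w; rw [zpow_add_one, zpow_mul, zpow_two, h.hw, one_zpow, one_mul]
  haveI hZn : Z.Normal := ⟨fun z hz g => by
    rcases hZmem z hz with rfl | rfl
    · simp
    · rw [h.hcen g, mul_inv_cancel_right]; exact hz⟩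
  obtain ⟨A, hZA, hAmax⟩ := Finite.exists_le_maximal
    (p := fun B : Subgroup X => B.Normal ∧ IsMulCommutative B) (a := Z)
    ⟨hZn, inferInstanceAs (IsMulCommutative (Subgroup.zpowers w))⟩
  obtain ⟨hAn, hAc⟩ := hAmax.prop
  haveI := hAn
  have hCA : centralizer (A : Set X) = A := Cfsg.Lib.Transfer.centralizer_eq_of_maximal_normal_abelian hG A hAc
    fun B hBn hBc hAB => le_antisymm (hAmax.le_of_ge ⟨hBn, hBc⟩ hAB) hAB
  have hcom : ∀ a ∈ A, ∀ b ∈ A, a * b = b * a := fun a ha b hb => by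
    haveI := hAc; exact setLike_mul_comm ha hb
  -- `w` is the only involution of `A`
  let K : Subgroup X :=
    { carrier := {a | a ∈ A ∧ a * a = 1}
      one_mem' := ⟨A.one_mem, by simp⟩
      mul_mem' := fun {a b} ha hb => ⟨A.mul_mem ha.1 hb.1, by
        calc a * b * (a * b) = a * (b * a) * b := by group
          _ = a * a * (b * b) := by rw [← hcom a ha.1 b hb.1]; group
          _ = 1 := by rw [ha.2, hb.2, one_mul]⟩
      inv_mem' := fun {a} ha => ⟨A.inv_mem ha.1, by rw [← mul_inv_rev, ha.2, inv_one]⟩ }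
  haveI : K.Normal := ⟨fun a ha g => ⟨hAn.conj_mem a ha.1 g, by rw [← sq, conj_pow, sq, ha.2]; group⟩⟩
  have hwA : w ∈ A := hZA (Subgroup.mem_zpowers w)
  have hKle : K ≤ Z := by
    by_contra hKZ
    have hZK : Z < K := lt_of_le_of_ne (Subgroup.zpowers_le.2 ⟨hwA, h.hw⟩) fun e => hKZ e.ge
    obtain ⟨B', b, -, -, hB'K, -, hb, hbZ, -, hbc⟩ := Cfsg.Lib.Transfer.exists_normal_step hG Z K hZK
    refine hno ⟨b, (hB'K hb).2, fun e => hbZ (e ▸ Z.one_mem), fun e => hbZ (e ▸ Subgroup.mem_zpowers w),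
      fun s => ?_⟩
    rcases hZmem _ (hbc s) with e | e
    · exact Or.inl (mul_inv_eq_one.1 e)
    · exact Or.inr (by rw [mul_inv_eq_iff_eq_mul] at e; rw [e, h.hcen b])
  have huniqA : ∀ a ∈ A, a * a = 1 → a = 1 ∨ a = w := fun a ha ha2 => hZmem a (hKle ⟨ha, ha2⟩)
  -- `A` is cyclic
  have hord : ∀ a : A, orderOf a = 2 → (a : X) = w := fun a ha => by
    have h1 : (a : X) * (a : X) = 1 := by
      have := pow_orderOf_eq_one a
      rw [ha, sq] at this
      simpa using congrArg Subtype.val this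
    exact (huniqA a a.2 h1).resolve_left fun e => by
      rw [show a = 1 from Subtype.ext e, orderOf_one] at ha; exact absurd ha (by norm_num)
  obtain ⟨g0, hg0⟩ := Cfsg.Lib.ZStar.exists_generator_of_unique (G := A) (p := 2) (hG.to_subgroup A)
    (fun a b ha hb => by rw [show b = a from Subtype.ext ((hord b hb).trans (hord a ha).symm)]
                         exact Subgroup.mem_zpowers a) ⊤
    ⟨⟨fun a b => Subtype.ext (Subtype.ext (hcom _ a.1.2 _ b.1.2))⟩⟩
  set g : X := (g0 : X) with hg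
  have hgen : ∀ a ∈ A, ∃ i : ℤ, g ^ i = a := fun a ha => by
    obtain ⟨i, hi⟩ : (⟨a, ha⟩ : A) ∈ Subgroup.zpowers g0 := hg0 ▸ Subgroup.mem_top _
    exact ⟨i, by simpa using congrArg Subtype.val hi⟩
  have hgA : g ∈ A := g0.2
  have hcomm_g : ∀ t : X, t * g * t⁻¹ = g → t ∈ A := fun t ht => by
    rw [← hCA]
    refine Subgroup.mem_centralizer_iff.2 fun a ha => ?_
    obtain ⟨i, rfl⟩ := hgen a ha
    exact ((show Commute t g from mul_inv_eq_iff_eq_mul.1 ht).zpow_right i).symm
  have hconj : ∀ (t : X) (i : ℤ), t * g ^ i * t⁻¹ = (t * g * t⁻¹) ^ i := fun t i => (conj_zpow).symm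
  -- `x` and the action on `g`
  have hxA : x ∉ A := fun hxA => by
    rcases huniqA x hxA h.hx with e | e
    · exact h.hx1 e
    · exact h.hxw e
  obtain ⟨m, hm⟩ := (Nat.dvd_prime_pow Nat.prime_two).1
    (orderOf_dvd_of_pow_eq_one (hG g).choose_spec)
  have hm' : orderOf g = 2 ^ m := hm.2
  have hmw : ∀ i : ℤ, g ^ i = 1 ↔ ((2 : ℤ) ^ m) ∣ i := fun i => by
    rw [← orderOf_dvd_iff_zpow_eq_one, hm']; push_cast; rfl
  have hm1 : 1 ≤ m := by
    rcases Nat.eq_zero_or_pos m with rfl | h'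
    · obtain ⟨i, hi⟩ := hgen w hwA
      rw [(hmw i).2 (by simp)] at hi
      exact absurd hi.symm h.hw1
    · exact h'
  have hwg : g ^ ((2 : ℤ) ^ (m - 1)) = w := by
    refine (huniqA _ (A.zpow_mem hgA _) ?_).resolve_left fun e => ?_
    · rw [← zpow_add, hmw, show (2 : ℤ) ^ m = 2 ^ (m - 1) * 2 by rw [← pow_succ]; congr 1; omega]
      exact ⟨1, by ring⟩
    · have h2 := (hmw _).1 e
      have h3 := Int.le_of_dvd (by positivity) h2
      have h4 : (2 : ℤ) ^ (m - 1) < 2 ^ m := pow_lt_pow_right₀ (by norm_num) (by omega)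
      omega
  have hfix : ∀ t, t * w * t⁻¹ = w := fun t => by rw [h.hcen t, mul_inv_cancel_right]
  have hodd : ∀ (t : X) (j : ℤ), t * g * t⁻¹ = g ^ j → Odd j := by
    intro t j hj
    rcases Int.even_or_odd j with ⟨i, rfl⟩ | ho
    · have h2 := hfix t
      rw [← hwg, hconj, hj, ← zpow_mul, hwg] at h2
      have h3 : g ^ ((i + i) * 2 ^ (m - 1)) = 1 := (hmw _).2 ⟨i, by
        rw [show (2 : ℤ) ^ m = 2 ^ (m - 1) * 2 by rw [← pow_succ]; congr 1; omega]; ring⟩
      exact absurd (h2.symm.trans h3) h.hw1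
    · exact ho
  have hsmall : ∀ (t : X), m ≤ 2 → t * g * t⁻¹ = g ∨ t * g * t⁻¹ = g⁻¹ := by
    intro t hm2
    obtain ⟨j, hj⟩ := hgen _ (hAn.conj_mem g hgA t)
    obtain ⟨i, rfl⟩ := hodd t j hj.symm
    rw [← hj]
    rcases Int.even_or_odd i with ⟨l, rfl⟩ | ⟨l, rfl⟩
    · left
      rw [zpow_add_one, (hmw _).2, one_mul]
      exact (pow_dvd_pow 2 hm2).trans ⟨l, by ring⟩
    · right
      rw [show (2 : ℤ) * (2 * l + 1) + 1 = 4 * (l + 1) + -1 by ring, zpow_add, (hmw (4 * (l + 1))).2, one_mul,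
        zpow_neg_one]
      exact (pow_dvd_pow 2 hm2).trans ⟨l + 1, by ring⟩
  -- elements of `C(x) ∩ A`
  have hsq : ∀ t : X, t * t ∈ A → ∀ j : ℤ, t * g * t⁻¹ = g ^ j → g ^ (j * j) = g := by
    intro t ht j hj
    have h1 : (t * t) * g * (t * t)⁻¹ = g := by rw [hcom _ ht g hgA]; group
    calc g ^ (j * j) = (t * g * t⁻¹) ^ j := by rw [hj, zpow_mul]
      _ = t * g ^ j * t⁻¹ := (hconj t j).symm
      _ = g := by rw [← hj]; exact Eq.trans (by group) h1
  have hfour : 3 ≤ m → ∀ j : ℤ, g ^ (j * j) = g →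
      g ^ j = g ∨ g ^ j = g * w ∨ g ^ j = g⁻¹ ∨ g ^ j = g⁻¹ * w := by
    intro hm3 j hj
    have hd : (2 : ℤ) ^ m ∣ j * j - 1 := by
      rw [← hmw, zpow_sub_one, hj, mul_inv_cancel]
    have hjo : Odd j := by
      rcases Int.even_or_odd j with ⟨i, rfl⟩ | ho
      · have h2 : (2 : ℤ) ∣ (i + i) * (i + i) - 1 := (dvd_pow_self 2 (by omega)).trans hd
        rw [show (i + i) * (i + i) - 1 = 2 * (2 * i * i) - 1 by ring] at h2
        omega
      · exact ho
    obtain ⟨i, rfl⟩ := hjo
    have hd2 : (2 : ℤ) ^ (m - 2) ∣ i * (i + 1) := by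
      rw [show m = (m - 2) + 2 by omega, pow_add,
        show (2 * i + 1) * (2 * i + 1) - 1 = i * (i + 1) * 2 ^ 2 by ring] at hd
      exact Int.dvd_of_mul_dvd_mul_right (by norm_num) hd
    -- `g ^ (2 * l)` for `l` a multiple of `2 ^ (m - 2)`
    have hval : ∀ l : ℤ, (2 : ℤ) ^ (m - 2) ∣ l → g ^ (2 * l) = 1 ∨ g ^ (2 * l) = w := by
      rintro l ⟨q, rfl⟩
      have e : (2 : ℤ) * (2 ^ (m - 2) * q) = 2 ^ (m - 1) * q := by
        rw [show m - 1 = (m - 2) + 1 by omega, pow_succ]; ring
      rw [e, zpow_mul, hwg]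
      exact hZmem _ (Subgroup.zpow_mem _ (Subgroup.mem_zpowers w) q)
    rcases Int.even_or_odd i with hi | hi
    · have hnd : ¬ (2 : ℤ) ∣ i + 1 := by
        obtain ⟨l, rfl⟩ := hi; omega
      rcases hval i ((Int.prime_two).pow_dvd_of_dvd_mul_right _ hnd hd2) with e | e
      · exact Or.inl (by rw [zpow_add_one, e, one_mul])
      · exact Or.inr (Or.inl (by rw [zpow_add_one, e, h.hcen g]))
    · have hnd : ¬ (2 : ℤ) ∣ i := by
        obtain ⟨l, rfl⟩ := hi; omega
      have e' : g ^ (2 * i + 1) = g ^ (2 * (i + 1)) * g⁻¹ := by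
        rw [← zpow_neg_one, ← zpow_add]; congr 1; ring
      rcases hval (i + 1) ((Int.prime_two).pow_dvd_of_dvd_mul_left _ hnd hd2) with e | e
      · exact Or.inr (Or.inr (Or.inl (by rw [e', e, one_mul])))
      · exact Or.inr (Or.inr (Or.inr (by rw [e', e, h.hcen g⁻¹])))
  -- no involution induces `g ↦ g * w`
  have hnogw : 3 ≤ m → ∀ y, y * y = 1 → y * g * y⁻¹ ≠ g * w := by
    intro hm3 y hy hyg
    have hgw : g * w ≠ g := fun e => h.hw1 (mul_left_cancel (e.trans (mul_one g).symm))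
    have hyA : y ∉ A := fun hyA => hgw (by rw [← hyg, hcom y hyA g hgA, mul_inv_cancel_right])
    have hy1 : y ≠ 1 := fun e => hyA (e ▸ A.one_mem)
    have hinvy : y⁻¹ = y := inv_eq_of_mul_eq_one_right hy
    have huniqy : ∀ z, z * z = 1 → z * g * z⁻¹ = g * w → z = y ∨ z = y * w := by
      intro z hz hzg
      have hya : y⁻¹ * z ∈ A := hcomm_g _ (by
        calc y⁻¹ * z * g * (y⁻¹ * z)⁻¹ = y⁻¹ * (z * g * z⁻¹) * y := by group
          _ = y⁻¹ * (y * g * y⁻¹) * y := by rw [hzg, hyg]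
          _ = g := by group)
      obtain ⟨i, hi⟩ := hgen _ hya
      have hz' : z = y * g ^ i := by rw [hi]; group
      have hc : (g * w) ^ i = g ^ i * w ^ i := (show Commute g w from h.hcen g).mul_zpow i
      have h2 : g ^ i * w ^ i * g ^ i = 1 := by
        rw [← hc, ← hyg, ← hconj]
        calc y * g ^ i * y⁻¹ * g ^ i = y * g ^ i * (y * g ^ i) := by rw [hinvy]; group
          _ = 1 := by rw [← hz', hz]
      rcases Int.even_or_odd i with hev | ⟨l, rfl⟩
      · obtain ⟨l, rfl⟩ := hev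
        rw [show w ^ (l + l) = 1 by rw [← two_mul, zpow_mul, zpow_two, h.hw, one_zpow], mul_one] at h2
        rcases huniqA _ (A.zpow_mem hgA _) h2 with e | e <;> rw [hz', e]
        · left; rw [mul_one]
        · right; rfl
      · exfalso
        rw [zpow_add_one w, zpow_mul, zpow_two, h.hw, one_zpow, one_mul] at h2
        have h5 : g ^ (2 * l + 1 + (2 * l + 1)) * w = 1 := by
          rw [zpow_add, mul_assoc, h.hcen, ← mul_assoc]; exact h2
        rw [← hwg, ← zpow_add, hmw] at h5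
        have h6 : (4 : ℤ) ∣ 2 * l + 1 + (2 * l + 1) + 2 ^ (m - 1) :=
          (show (4 : ℤ) ∣ 2 ^ m from ⟨2 ^ (m - 2), by
            rw [show (4 : ℤ) = 2 ^ 2 by norm_num, ← pow_add]; congr 1; omega⟩).trans h5
        have h7 : (4 : ℤ) ∣ 2 ^ (m - 1) := ⟨2 ^ (m - 3), by
            rw [show (4 : ℤ) = 2 ^ 2 by norm_num, ← pow_add]; congr 1; omega⟩
        omega
    refine hno ⟨y, hy, hy1, fun e => hyA (e ▸ hwA), fun s => ?_⟩
    refine huniqy _ (by rw [← sq, conj_pow, sq, hy]; group) ?_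
    obtain ⟨i, hi⟩ := hgen _ (hAn.conj_mem g hgA s⁻¹)
    rw [inv_inv] at hi
    have hsg : s * g ^ i * s⁻¹ = g := by rw [hi]; group
    obtain ⟨j, hj⟩ := hgen _ (hAn.conj_mem g hgA s)
    obtain ⟨l, hl⟩ := hodd s⁻¹ i (by rw [hi, inv_inv])
    calc s * y * s⁻¹ * g * (s * y * s⁻¹)⁻¹ = s * (y * (s⁻¹ * g * s) * y⁻¹) * s⁻¹ := by group
      _ = s * ((g * w) ^ i) * s⁻¹ := by rw [← hi, hconj, hyg]
      _ = s * (g ^ i * w) * s⁻¹ := by
          rw [(show Commute g w from h.hcen g).mul_zpow, hl, zpow_add_one w, zpow_mul, zpow_two, h.hw,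
            one_zpow, one_mul]
      _ = (s * g ^ i * s⁻¹) * (s * w * s⁻¹) := by group
      _ = g * w := by rw [hsg, hfix]
  -- `x` inverts
  obtain ⟨jx, hjx⟩ := hgen _ (hAn.conj_mem g hgA x)
  have hxg : x * g * x⁻¹ = g⁻¹ ∨ x * g * x⁻¹ = g⁻¹ * w := by
    by_cases hm2 : m ≤ 2
    · exact Or.inl ((hsmall x hm2).resolve_left fun e => hxA (hcomm_g x e))
    · rw [← hjx]
      rcases hfour (by omega) jx (hsq x (h.hx ▸ A.one_mem) jx hjx.symm) with e | e | e | e
      · exact absurd (hcomm_g x (hjx ▸ e)) hxA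
      · exact absurd (hjx ▸ e) (hnogw (by omega) x h.hx)
      · exact Or.inl e
      · exact Or.inr e
  have hCAx : ∀ a ∈ A, x * a = a * x → a = 1 ∨ a = w := by
    intro a ha hax
    obtain ⟨i, rfl⟩ := hgen a ha
    have h1 : (x * g * x⁻¹) ^ i = g ^ i := by rw [← hconj, hax, mul_inv_cancel_right]
    refine huniqA _ ha ?_
    rcases hxg with e | e <;> rw [e] at h1
    · rw [inv_zpow] at h1
      nth_rewrite 2 [← h1]; rw [mul_inv_cancel]
    · have h2 : (g⁻¹ * w) ^ i = (g ^ i)⁻¹ * w ^ i := by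
        rw [(show Commute g⁻¹ w from h.hcen g⁻¹).mul_zpow, inv_zpow]
      rw [h2] at h1
      rcases Int.even_or_odd i with ⟨l, rfl⟩ | ⟨l, rfl⟩
      · rw [show w ^ (l + l) = 1 by rw [← two_mul, zpow_mul, zpow_two, h.hw, one_zpow], mul_one] at h1
        nth_rewrite 2 [← h1]; rw [mul_inv_cancel]
      · rw [zpow_add_one w, zpow_mul, zpow_two, h.hw, one_zpow, one_mul] at h1
        have h5 : g ^ (2 * l + 1) * g ^ (2 * l + 1) = w := by
          nth_rewrite 2 [← h1]; rw [mul_inv_cancel_left]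
        by_cases hm2 : m ≤ 1
        · rw [← zpow_add]
          exact (hmw _).2 ((pow_dvd_pow 2 hm2).trans ⟨2 * l + 1, by ring⟩)
        · exfalso
          rw [← zpow_add, ← hwg, ← mul_inv_eq_one, ← zpow_neg, ← zpow_add, hmw] at h5
          have h6 := (show (4 : ℤ) ∣ 2 ^ m from ⟨2 ^ (m - 2), by
            rw [show (4 : ℤ) = 2 ^ 2 by norm_num, ← pow_add]; congr 1; omega⟩).trans h5
          rcases Nat.lt_or_ge m 3 with hm3 | hm3
          · have hm22 : m = 2 := by omega
            subst hm22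
            rcases hsmall x le_rfl with e' | e'
            · exact hxA (hcomm_g x e')
            · rw [e] at e'
              exact h.hw1 (mul_left_cancel (e'.trans (mul_one g⁻¹).symm))
          · have h7 : (4 : ℤ) ∣ 2 ^ (m - 1) := ⟨2 ^ (m - 3), by
              rw [show (4 : ℤ) = 2 ^ 2 by norm_num, ← pow_add]; congr 1; omega⟩
            omega
  -- an element of `C(x)` outside the four group
  obtain ⟨t0, ht0, ht0V⟩ : ∃ t, x * t = t * x ∧ ¬ InV x w t := by
    by_contra hc
    refine absurd (card_le_four x w _ fun t ht => ?_) hT.not_ge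
    by_contra ht'
    exact hc ⟨t, (Subgroup.mem_centralizer_singleton_iff.1 ht).symm, ht'⟩
  obtain ⟨t, htx, htV, ht2V⟩ := exists_step h hG (fun t => x * t = t * x)
    (fun t ht => ((show Commute x t from ht).mul_right ht).eq) ht0V ht0
  obtain ⟨j, hj⟩ := hgen _ (hAn.conj_mem g hgA t)
  have hinvx : x⁻¹ = x := inv_eq_of_mul_eq_one_right h.hx
  have hnA : ∀ s, x * s = s * x → s ∈ A → InV x w s := fun s hs hsA => by
    rcases hCAx s hsA hs with e | e
    · exact Or.inl e
    · exact Or.inr (Or.inr (Or.inl e))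
  have htxV : ¬ InV x w (t * x) := by
    have e0 : t = t * x * x := by rw [mul_assoc, h.hx, mul_one]
    intro hv
    apply htV
    have hwx := h.hcen x
    rcases hv with e | e | e | e <;> rw [e] at e0
    · exact Or.inr (Or.inl (e0.trans (one_mul x)))
    · exact Or.inl (e0.trans h.hx)
    · exact Or.inr (Or.inr (Or.inr (e0.trans hwx.symm)))
    · refine Or.inr (Or.inr (Or.inl (e0.trans ?_)))
      rw [mul_assoc, ← hwx, ← mul_assoc, h.hx, one_mul]
  have hxtx : x * (t * x) = t * x * x := by rw [← mul_assoc, htx]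
  by_cases hm2 : m ≤ 2
  · rcases hsmall t hm2 with e | e
    · exact htV (hnA t htx (hcomm_g t e))
    · have ex := (hsmall x hm2).resolve_left fun e => hxA (hcomm_g x e)
      refine htxV (hnA _ hxtx (hcomm_g _ ?_))
      calc t * x * g * (t * x)⁻¹ = t * (x * g * x⁻¹) * t⁻¹ := by group
        _ = (t * g * t⁻¹)⁻¹ := by rw [ex]; group
        _ = g := by rw [e, inv_inv]
  have hm3 : 3 ≤ m := by omega
  -- the square of `t` is `w`
  have ht2 : t * t = w := by
    have hne1 : t * t ≠ 1 := fun e => by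
      have ht1 : t ≠ 1 := fun e1 => htV (Or.inl e1)
      rcases h.hinv t e ht1 htx with e | e | e
      · exact htV (Or.inr (Or.inl e))
      · exact htV (Or.inr (Or.inr (Or.inl e)))
      · exact htV (Or.inr (Or.inr (Or.inr e)))
    have key : ∀ s, (t * t) * g * (t * t)⁻¹ = s → g ^ (j * j) = s := fun s hs => by
      rw [zpow_mul, hj, ← hconj, hj, ← hs]; group
    have hfour' : ∀ s : ℤ, (2 : ℤ) ^ m ∣ j * j - s → (4 : ℤ) ∣ j * j - s := fun s hd =>
      (show (4 : ℤ) ∣ 2 ^ m from ⟨2 ^ (m - 2), by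
            rw [show (4 : ℤ) = 2 ^ 2 by norm_num, ← pow_add]; congr 1; omega⟩).trans hd
    have hbad : t * t * g * (t * t)⁻¹ ≠ g⁻¹ ∧ t * t * g * (t * t)⁻¹ ≠ g⁻¹ * w := by
      obtain ⟨i, hi⟩ := hodd t j hj.symm
      have h7 : (4 : ℤ) ∣ 2 ^ (m - 1) := ⟨2 ^ (m - 3), by
        rw [show (4 : ℤ) = 2 ^ 2 by norm_num, ← pow_add]; congr 1; omega⟩
      have hjj : j * j = 4 * (i * i + i) + 1 := by rw [hi]; ring
      constructor <;> intro e <;> have e2 := key _ e
      · rw [← mul_inv_eq_one, inv_inv, ← zpow_add_one, hmw] at e2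
        have := hfour' (-1) (by simpa using e2)
        omega
      · rw [← mul_inv_eq_one, mul_inv_rev, inv_inv, ← hwg, ← mul_assoc, ← zpow_neg, ← zpow_add,
          ← zpow_add_one, hmw] at e2
        have := hfour' (2 ^ (m - 1) - 1) (by convert e2 using 1; ring)
        omega
    rcases ht2V with e | e | e | e
    · exact absurd e hne1
    · rcases hxg with e' | e'
      · exact absurd (e ▸ e') hbad.1
      · exact absurd (e ▸ e') hbad.2
    · exact e
    · have e3 : x * w * g * (x * w)⁻¹ = x * g * x⁻¹ := by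
        calc x * w * g * (x * w)⁻¹ = x * (w * g) * w⁻¹ * x⁻¹ := by group
          _ = x * g * x⁻¹ := by rw [← h.hcen g]; group
      rcases hxg with e' | e'
      · exact absurd ((e ▸ e3).trans e') hbad.1
      · exact absurd ((e ▸ e3).trans e') hbad.2
  -- an element commuting with `x`, squaring to `w`, acting as `g ↦ g * w` is impossible
  have hkill : ∀ s : X, s * s = w → s * g * s⁻¹ ≠ g * w := by
    intro s hs hsg
    set c := g ^ ((2 : ℤ) ^ (m - 2)) with hc
    have hc2 : c * c = w := by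
      rw [hc, ← zpow_add, ← hwg]; congr 1
      rw [show m - 1 = (m - 2) + 1 by omega, pow_succ]; ring
    have hsc : s * c = c * s := by
      rw [← mul_inv_eq_iff_eq_mul, hc, hconj, hsg, (show Commute g w from h.hcen g).mul_zpow,
        show (2 : ℤ) ^ (m - 2) = 2 * 2 ^ (m - 3) by rw [← pow_succ']; congr 1; omega,
        zpow_mul w, zpow_two, h.hw, one_zpow, mul_one]
    refine hnogw hm3 (s * c) ?_ ?_
    · calc s * c * (s * c) = s * (c * s) * c := by group
        _ = (s * s) * (c * c) := by rw [← hsc]; group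
        _ = 1 := by rw [hs, hc2, h.hw]
    · calc s * c * g * (s * c)⁻¹ = s * (c * g) * c⁻¹ * s⁻¹ := by group
        _ = s * (g * c) * c⁻¹ * s⁻¹ := by rw [hcom c (A.zpow_mem hgA _) g hgA]
        _ = g * w := by rw [← hsg]; group
  have hx2 : (t * x) * (t * x) = w := by
    calc (t * x) * (t * x) = t * (x * t) * x := by group
      _ = (t * t) * (x * x) := by rw [htx]; group
      _ = w := by rw [ht2, h.hx, mul_one]
  have ec : t * x * g * (t * x)⁻¹ = t * (x * g * x⁻¹) * t⁻¹ := by group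
  rcases hfour hm3 j (hsq t (ht2 ▸ hwA) j hj.symm) with e | e | e | e <;> rw [hj] at e
  · exact htV (hnA t htx (hcomm_g t e))
  · exact hkill t ht2 e
  · rcases hxg with ex | ex
    · refine htxV (hnA _ hxtx (hcomm_g _ ?_))
      rw [ec, ex, ← conj_inv, e, inv_inv]
    · refine hkill (t * x) hx2 ?_
      rw [ec, ex, ← conj_mul, ← conj_inv, e, inv_inv, hfix]
  · rcases hxg with ex | ex
    · refine hkill (t * x) hx2 ?_
      rw [ec, ex, ← conj_inv, e, mul_inv_rev, inv_inv, inv_eq_of_mul_eq_one_right h.hw, h.hcen g]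
    · refine htxV (hnA _ hxtx (hcomm_g _ ?_))
      rw [ec, ex, ← conj_mul, ← conj_inv, e, mul_inv_rev, inv_inv, inv_eq_of_mul_eq_one_right h.hw, hfix,
        ← h.hcen g, mul_assoc, h.hw, mul_one]

/-- If `C(x)` is the four group then there is a maximal subgroup with unique involution `w`. -/
theorem exists_cyclic_of_card_four {x w : X} (h : Three x w) (hG : IsPGroup 2 X)
    (hnc : ¬ ∀ s, s * x = x * s) (hT : Nat.card (centralizer ({x} : Set X)) ≤ 4) :
    ∃ M : Subgroup X, M.index = 2 ∧ ∀ u ∈ M, u * u = 1 → u ≠ 1 → u = w := by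
  classical
  haveI := Fact.mk Nat.prime_two
  haveI := Fintype.ofFinite X
  set T := centralizer ({x} : Set X) with hTdef
  have hxT : x ∈ T := Subgroup.mem_centralizer_singleton_iff.2 rfl
  have hwT : w ∈ T := Subgroup.mem_centralizer_singleton_iff.2 (h.hcen x).symm
  have hinvx : x⁻¹ = x := inv_eq_of_mul_eq_one_right h.hx
  have hxw1 : x * w ≠ 1 := fun e => h.hxw (by rw [← hinvx]; exact inv_eq_of_mul_eq_one_right e)
  have hsub : ({1, x, w, x * w} : Finset X) ⊆ (T : Set X).toFinset := by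
    intro u hu
    simp only [Finset.mem_insert, Finset.mem_singleton] at hu
    rw [Set.mem_toFinset]
    rcases hu with rfl | rfl | rfl | rfl
    exacts [T.one_mem, hxT, hwT, T.mul_mem hxT hwT]
  have hc4 : ({1, x, w, x * w} : Finset X).card = 4 := by
    rw [Finset.card_eq_succ]
    refine ⟨1, {x, w, x * w}, ?_, rfl, ?_⟩
    · simp [Ne.symm h.hx1, Ne.symm h.hw1, Ne.symm hxw1]
    · rw [Finset.card_eq_three]
      exact ⟨x, w, x * w, h.hxw, fun e => h.hw1 (mul_left_cancel ((mul_one x).trans e)).symm,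
        fun e => h.hx1 (mul_right_cancel ((one_mul w).trans e)).symm, rfl⟩
  have hcard : Nat.card T = 4 := by
    refine le_antisymm hT ?_
    rw [← hc4, show Nat.card T = (T : Set X).toFinset.card by
      rw [Set.toFinset_card, Nat.card_eq_fintype_card]; rfl]
    exact Finset.card_le_card hsub
  have hTV : ∀ t ∈ T, InV x w t := by
    intro t ht
    have : t ∈ ({1, x, w, x * w} : Finset X) := by
      rw [Finset.eq_of_subset_of_card_le hsub (by
        rw [hc4, Set.toFinset_card, ← Nat.card_eq_fintype_card]; exact hcard.le)]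
      exact Set.mem_toFinset.2 ht
    simpa [InV] using this
  have hCT : centralizer (T : Set X) = T := by
    refine le_antisymm (fun c hc => Subgroup.mem_centralizer_singleton_iff.2
      (Subgroup.mem_centralizer_iff.1 hc x hxT).symm) fun t ht => Subgroup.mem_centralizer_iff.2 fun s hs => ?_
    have hwx := h.hcen x
    have h1 : Commute x t := (Subgroup.mem_centralizer_singleton_iff.1 ht).symm
    have h2 : Commute w t := (h.hcen t).symm
    rcases hTV s hs with rfl | rfl | rfl | rfl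
    exacts [(Commute.one_left t).eq, h1.eq, h2.eq, (h1.mul_left h2).eq]
  obtain ⟨n, hn⟩ := IsPGroup.iff_card.1 hG
  have hclass := Cfsg.Lib.Transfer.nilpotencyClass_of_selfCentralizing n X hn T (by rw [hcard]; norm_num) hCT
  have hn3 : 3 ≤ n := by
    have hlt : T < ⊤ := lt_top_iff_ne_top.2 fun e => hnc fun s =>
      Subgroup.mem_centralizer_singleton_iff.1 (show s ∈ T by rw [e]; exact Subgroup.mem_top s)
    have h1 : Nat.card T < Nat.card X := by
      rw [← Subgroup.card_top (G := X)]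
      exact lt_of_le_of_ne (Subgroup.card_le_card_group _ |>.trans_eq Subgroup.card_top.symm) fun e =>
        hlt.ne (Subgroup.eq_top_of_card_eq T (e.trans Subgroup.card_top))
    rw [hcard, hn] at h1
    by_contra hlt'
    have := Nat.pow_le_pow_right (show 1 ≤ 2 by norm_num) (show n ≤ 2 by omega)
    omega
  obtain ⟨a, t, ha, -, hcen, -⟩ := Cfsg.Lib.Transfer.four_structure hn3 hn
    (Cfsg.Lib.Transfer.four_of_maximal_class n X hn3 hn hclass)
  refine ⟨Subgroup.zpowers a, ?_, fun u hu hu2 hu1 => ?_⟩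
  · have h2 := (Subgroup.zpowers a).card_mul_index
    rw [Nat.card_zpowers, ha, hn, show n = (n - 1) + 1 by omega, pow_succ] at h2
    exact Nat.eq_of_mul_eq_mul_left (pow_pos two_pos _) h2
  · have hwa : w ∈ Subgroup.zpowers a := by
      have : w ∈ Subgroup.center X := Subgroup.mem_center_iff.2 h.hcen
      rw [hcen] at this
      exact Subgroup.zpowers_le.2 (Subgroup.pow_mem _ (Subgroup.mem_zpowers a) _) this
    haveI : IsCyclic (Subgroup.zpowers a) := inferInstance
    haveI := Fintype.ofFinite (Subgroup.zpowers a)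
    have hcyc := IsCyclic.card_orderOf_eq_totient (α := Subgroup.zpowers a) (d := 2)
    by_contra hne
    set U : Subgroup.zpowers a := ⟨u, hu⟩
    set W : Subgroup.zpowers a := ⟨w, hwa⟩
    have hU : orderOf U = 2 := orderOf_eq_prime (Subtype.ext (by simpa [sq] using hu2))
      fun e => hu1 (congrArg Subtype.val e)
    have hW : orderOf W = 2 := orderOf_eq_prime (Subtype.ext (by simpa [sq] using h.hw))
      fun e => h.hw1 (congrArg Subtype.val e)
    have h2 := hcyc (by rw [← hW]; exact orderOf_dvd_card)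
    have h3 : 1 < (Finset.univ.filter fun c : Subgroup.zpowers a => orderOf c = 2).card :=
      Finset.one_lt_card.2 ⟨U, by simp [hU], W, by simp [hW], fun e => hne (congrArg Subtype.val e)⟩
    rw [h2, Nat.totient_two] at h3
    omega

end Cfsg.Lib.TwoFus.ThreeInvolutions
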